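import Cfsg.Agent.H678.OZ.Disj
import Cfsg.Agent.H678.OZ.DefectOne
import Cfsg.Agent.H849.OZ.Bad
import Cfsg.Agent.H849.OZ.TFive
import Cfsg.Agent.H672.OZ.Full
import Cfsg.Agent.H547.SelfCent.Base

/-!
# S4842, the row of `Co1`: the arithmetic (helper678)

`h : One χ x`, `c = |C(x)| ≥ 9`, `d = χ(1)`, `N = |Co1|`.

* `11`, `13`, `23` and the full powers of `2`, `3`, `5` do not divide `d`, `d ≡ ± 1` modulo `23`, and `7 ∤ d` by blocks
  of defect one;
* the excesses of the elements of order divisible by `7`, `11`, `13` are disjoint: `d = 14745600`;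
* then `2 ^ 13` divides the value at a dodecad involution.
-/

set_option autoImplicit false
set_option maxRecDepth 100000

open Cfsg Cfsg.Agent.Characters Cfsg.Agent.H686.CharKit Cfsg.Agent.H732.VZ Cfsg.Agent.H604.OZ

namespace Cfsg.Agent.H678.OZ.CoOne

universe u

/-! ### the Boolean tests -/

/-- the test for `x` of order prime to `7` -/
def tA (d : ℕ) : Bool :=
  (List.range 6).any fun a => (List.range 2).any fun b => (List.range 2).any fun c =>
    Nat.ble (9 * (84852587888640000 * a + 377979709685760000 * b + 319828985118720000 * c + (d ^ 2 - 1)))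
      4157776806543360000 &&
    ((!(Nat.beq a 0) || Nat.beq ((d ^ 2 - 1) % 49) 0) && ((!(Nat.beq b 0) || Nat.beq ((d ^ 2 - 1) % 11) 0) &&
    ((!(Nat.beq c 0) || Nat.beq ((d ^ 2 - 1) % 13) 0) && Nat.beq ((84852587888640000 * a + (d ^ 2 - 1)) % 7) 0)))

/-- the test for `x` of order divisible by `7` -/
def tB (d : ℕ) : Bool :=
  Nat.ble (14 * (d ^ 2 - 1)) 4157776806543360000 && (Nat.beq ((d ^ 2 - 1) % 11) 0 &&
    (Nat.beq ((d ^ 2 - 1) % 13) 0 && (List.range 4).any fun k => !(Nat.beq k 0) &&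
      Nat.beq ((84852587888640000 * k) % 7) ((d ^ 2 - 1) % 7)))

/-- the common test -/
def tC (d : ℕ) : Bool :=
  Nat.blt 1 d && ((Nat.beq (d % 23) 1 || Nat.beq (d % 23) 22) && (!(Nat.beq (d % 2 ^ 21) 0) &&
    (!(Nat.beq (d % 3 ^ 9) 0) && !(Nat.beq (d % 5 ^ 4) 0))))

def l : List (ℕ × ℕ) := [(2, 21), (3, 9), (5, 4)]

theorem l_prime : ∀ y ∈ l, y.1.Prime := by
  intro y hy
  simp only [l, List.mem_cons, List.not_mem_nil, or_false] at hy
  rcases hy with rfl | rfl | rfl <;> norm_num

theorem l_val : H417.Divs.val l = 2 ^ 21 * 3 ^ 9 * 5 ^ 4 := by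
  simp [H417.Divs.val, l]

theorem checkA : ((H417.Divs.divs l).all fun d => !(tC d && tA d) || Nat.beq d 14745600) = true := by decide +kernel

theorem checkB : ((H417.Divs.divs l).all fun d => !(tC d && tB d)) = true := by decide +kernel

/-! ### the passage to the tests -/

/-- the hypotheses on the group -/
structure Data (G : Type u) [Group G] [Finite G] : Prop where
  simple : IsSimpleGroup G
  card : Nat.card G = 4157776806543360000
  c11 : ∀ z : G, orderOf z = 11 → cent z = 66
  c13 : ∀ z : G, orderOf z = 13 → ¬ 7 ∣ cent z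
  c23 : ∀ z : G, orderOf z = 23 → cent z = 23
  two7 : ∃ y₁ y₂ : G, orderOf y₁ = 7 ∧ orderOf y₂ = 7 ∧ cent y₁ = 17640 ∧ cent y₂ = 1176
  syl7 : ∃ P : Sylow 7 G, ∀ g ∈ Subgroup.centralizer ((P : Subgroup G) : Set G), ¬ 7 ∣ orderOf g → g = 1
  dod : ∃ t : G, orderOf t = 2 ∧ cent t = 389283840
  two_le : ∀ x : G, x ≠ 1 → (∃ k, orderOf x = 2 ^ k) → 9 ≤ cent x
  not_six : ∀ x : G, cent x ≠ 6

variable {G : Type u} [Group G] [Finite G]

omit [Finite G] in
theorem orderOf_dvd_cent (x : G) : orderOf x ∣ cent x := by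
  have h : x ∈ Subgroup.centralizer ({x} : Set G) := Subgroup.mem_centralizer_singleton_iff.2 rfl
  exact Subgroup.orderOf_dvd_natCard _ h

/-- a prime dividing the order of an element -/
theorem exists_pow_order (g : G) {p : ℕ} (h : p ∣ orderOf g) :
    ∃ k : ℕ, orderOf (g ^ k) = p := by
  obtain ⟨k, hk⟩ := h
  have hk0 : k ≠ 0 := by
    rintro rfl
    rw [mul_zero] at hk
    exact (orderOf_pos g).ne' hk
  refine ⟨k, ?_⟩
  rw [orderOf_pow, hk, Nat.gcd_eq_right (Dvd.intro_left p rfl), Nat.mul_div_cancel _ (Nat.pos_of_ne_zero hk0)]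

omit [Finite G] in
/-- an element commutes with its powers: `orderOf g ∣ cent (g ^ k)` -/
theorem orderOf_dvd_cent_pow (g : G) (k : ℕ) : orderOf g ∣ cent (g ^ k) := by
  have h : g ∈ Subgroup.centralizer ({g ^ k} : Set G) :=
    Subgroup.mem_centralizer_singleton_iff.2 (Commute.self_pow g k)
  exact Subgroup.orderOf_dvd_natCard _ h

theorem Data.no_77 (D : Data G) (g : G) : ¬ 7 * 11 ∣ orderOf g := by
  intro h
  obtain ⟨k, hk⟩ := exists_pow_order g (p := 11) ((Dvd.intro_left 7 rfl).trans h)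
  have h1 := h.trans (orderOf_dvd_cent_pow g k)
  rw [D.c11 _ hk] at h1
  norm_num at h1

theorem Data.no_143 (D : Data G) (g : G) : ¬ 11 * 13 ∣ orderOf g := by
  intro h
  obtain ⟨k, hk⟩ := exists_pow_order g (p := 11) ((Dvd.intro 13 rfl).trans h)
  have h1 := h.trans (orderOf_dvd_cent_pow g k)
  rw [D.c11 _ hk] at h1
  norm_num at h1

theorem Data.no_91 (D : Data G) (g : G) : ¬ 7 * 13 ∣ orderOf g := by
  intro h
  obtain ⟨k, hk⟩ := exists_pow_order g (p := 13) ((Dvd.intro_left 7 rfl).trans h)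
  have h1 := h.trans (orderOf_dvd_cent_pow g k)
  exact D.c13 _ hk ((Dvd.intro 13 rfl).trans h1)

/-- the centralizer of an element of order `13` has order different from `13` -/
theorem Data.lt_13 (D : Data G) {z : G} (hz : orderOf z = 13) : 13 < cent z := by
  have hs := D.simple
  have hN := D.card
  have hp : Nat.Prime 13 := by norm_num
  have h1 : 13 ∣ cent z := hz ▸ orderOf_dvd_cent z
  have hpos : 0 < cent z := Nat.card_pos
  rcases Nat.lt_or_ge 13 (cent z) with h | h
  · exact h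
  exfalso
  have h2 : cent z = 13 := by omega
  obtain ⟨e, he1, -, he3, he4, -⟩ := H547.SelfCent.arith hp hz (by rw [hN]; norm_num)
  have h3 : Nat.card (Subgroup.centralizer ({z} : Set G)) = 13 := h2
  rw [h3, hN] at he3
  have he : e ∈ Nat.divisors 12 := Nat.mem_divisors.2 ⟨he1, by norm_num⟩
  have key : ∀ e ∈ Nat.divisors 12, 4157776806543360000 / (13 * e) % 13 = 1 % 13 → e = 1 := by decide +kernel
  have he5 := key e he he3
  rw [he5, mul_one] at he4
  exact H547.SelfCent.not_norm_le hp hz (by rw [hN]; norm_num) (by rw [hN]; norm_num) he4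

/-- **`9 ≤ |C(x)|`.** -/
theorem Data.nine_le (D : Data G) {χ : IrrCharacter G} {x : G} (h : One χ x) : 9 ≤ cent x := by
  have hN := D.card
  have h4 : 4 ≤ cent x := four_le_cent h (by rw [hN]; norm_num) (by rw [hN]; norm_num)
  have hx1 : x ≠ 1 := ne_one h
  by_contra hlt
  have h5 : cent x ≠ 5 := fun h5 => cent_prime hx1 (by rw [h5]; norm_num) (by rw [h5, hN]; norm_num)
  have h7 : cent x ≠ 7 := fun h7 => cent_prime hx1 (by rw [h7]; norm_num) (by rw [h7, hN]; norm_num)
  have h6 := D.not_six x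
  have h48 : cent x = 4 ∨ cent x = 8 := by omega
  have ho := orderOf_dvd_cent x
  apply hlt
  apply D.two_le x hx1
  rcases h48 with h8 | h8
  · rw [h8] at ho
    obtain ⟨k, -, hk⟩ := (Nat.dvd_prime_pow Nat.prime_two (m := 2)).1 (by simpa using ho)
    exact ⟨k, hk⟩
  · rw [h8] at ho
    obtain ⟨k, -, hk⟩ := (Nat.dvd_prime_pow Nat.prime_two (m := 3)).1 (by simpa using ho)
    exact ⟨k, hk⟩

/-- `x` is `p`-regular if `p ∥ N`, `p < |C(z)|` for an element `z` of order `p` -/
theorem not_dvd_order [IsSimpleGroup G] {χ : IrrCharacter G} {x : G} (h : One χ x) {p : ℕ} (hp : p.Prime) (h1 : p ∣ Nat.card G)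
    (h2 : ¬ p ^ 2 ∣ Nat.card G) (hC : ∀ z : G, orderOf z = p → p < cent z) : ¬ p ∣ orderOf x := by
  rcases Nat.lt_or_ge p (cent x) with hlt | hge
  · exact H733.OZ.not_dvd_orderOf h hp (n := 1) (by rwa [pow_one]) h2 (by rwa [pow_one])
  · have hF : Fact p.Prime := ⟨hp⟩
    obtain ⟨z, hz⟩ := exists_prime_orderOf_dvd_card' p h1
    exact H849.OZ.not_dvd_of_le hp h2 hz (hC z hz) hge

/-- the common test -/
theorem Data.tC (D : Data G) {χ : IrrCharacter G} {x : G} (h : One χ x) :
    tC (charDegree (χ : G → ℂ)) = true := by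
  have hs := D.simple
  have hN := D.card
  have h9 := D.nine_le h
  have hd := one_lt_deg h
  have h23 := H672.OZ.iso_mod (p := 23) h (by norm_num) (by norm_num) (by rw [hN]; norm_num) (by rw [hN]; norm_num)
    (by rw [hN]; norm_num) (fun y hy => D.c23 y hy) (by omega)
  have f23 := H672.OZ.not_full (r := 23) (n := 1) h (by norm_num) (by norm_num) (by rw [hN]; norm_num)
    (by rw [hN]; norm_num) (by rw [hN]; norm_num)
  have f2 := H672.OZ.not_full (r := 2) (n := 21) h (by norm_num) (by norm_num) (by rw [hN]; norm_num)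
    (by rw [hN]; norm_num) (by rw [hN]; norm_num)
  have f3 := H672.OZ.not_full (r := 3) (n := 9) h (by norm_num) (by norm_num) (by rw [hN]; norm_num)
    (by rw [hN]; norm_num) (by rw [hN]; norm_num)
  have f5 := H672.OZ.not_full (r := 5) (n := 4) h (by norm_num) (by norm_num) (by rw [hN]; norm_num)
    (by rw [hN]; norm_num) (by rw [hN]; norm_num)
  generalize charDegree (χ : G → ℂ) = d at *
  rw [pow_one] at f23
  unfold CoOne.tC
  simp only [Bool.and_eq_true, Bool.or_eq_true, Bool.not_eq_true', Nat.blt_eq, Nat.beq_eq]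
  refine ⟨by simpa using hd, ?_, ?_, ?_, ?_⟩
  · rcases h23 with h1 | h1 | h1
    · exact absurd (Nat.dvd_of_mod_eq_zero h1) f23
    · exact Or.inl h1
    · exact Or.inr h1
  · exact Bool.eq_false_iff.2 fun h => f2 (Nat.dvd_of_mod_eq_zero (Nat.eq_of_beq_eq_true h))
  · exact Bool.eq_false_iff.2 fun h => f3 (Nat.dvd_of_mod_eq_zero (Nat.eq_of_beq_eq_true h))
  · exact Bool.eq_false_iff.2 fun h => f5 (Nat.dvd_of_mod_eq_zero (Nat.eq_of_beq_eq_true h))

/-- the degree is a `{2, 3, 5}`-number -/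
theorem Data.dvd (D : Data G) {χ : IrrCharacter G} {x : G} (h : One χ x) :
    charDegree (χ : G → ℂ) ∣ 2 ^ 21 * 3 ^ 9 * 5 ^ 4 := by
  have hs := D.simple
  have hN := D.card
  have h9 := D.nine_le h
  have f23 := H672.OZ.not_full (r := 23) (n := 1) h (by norm_num) (by norm_num) (by rw [hN]; norm_num)
    (by rw [hN]; norm_num) (by rw [hN]; norm_num)
  have f11 := H672.OZ.not_full (r := 11) (n := 1) h (by norm_num) (by norm_num) (by rw [hN]; norm_num)
    (by rw [hN]; norm_num) (by rw [hN]; norm_num)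
  have f13 := H672.OZ.not_full (r := 13) (n := 1) h (by norm_num) (by norm_num) (by rw [hN]; norm_num)
    (by rw [hN]; norm_num) (by rw [hN]; norm_num)
  obtain ⟨y₁, y₂, o₁, o₂, c₁, c₂⟩ := D.two7
  have hu : ∀ y : G, 2 ∣ cent y → ∃ u : G, Commute y u ∧ u ≠ 1 ∧ ¬ 7 ∣ orderOf u := by
    intro y hy
    have hF : Fact (Nat.Prime 2) := ⟨Nat.prime_two⟩
    obtain ⟨u, hu⟩ := exists_prime_orderOf_dvd_card' (G := Subgroup.centralizer ({y} : Set G)) 2 hy
    have hu' : orderOf (u : G) = 2 := by rw [Subgroup.orderOf_coe, hu]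
    refine ⟨u, (Subgroup.mem_centralizer_singleton_iff.1 u.2).symm, ?_, ?_⟩
    · intro h1
      rw [h1, orderOf_one] at hu'
      norm_num at hu'
    · rw [hu']; norm_num
  obtain ⟨u₁, a₁, b₁, e₁⟩ := hu y₁ (by rw [c₁]; norm_num)
  obtain ⟨u₂, a₂, b₂, e₂⟩ := hu y₂ (by rw [c₂]; norm_num)
  have f7 := not_dvd_of_two h (p := 7) (by norm_num) (by rw [hN]; norm_num) (by rw [hN]; norm_num) o₁ o₂
    (by rw [c₁, c₂]; norm_num) a₁ a₂ b₁ b₂ e₁ e₂
  have hdvd := deg_dvd χ
  rw [hN] at hdvd
  generalize charDegree (χ : G → ℂ) = d at *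
  have key : ∀ p : ℕ, p.Prime → ¬ p ∣ d → d.Coprime p := fun p hp h => ((Nat.Prime.coprime_iff_not_dvd hp).2 h).symm
  have hcop : d.Coprime (7 ^ 2 * 11 * 13 * 23) := by
    refine Nat.Coprime.mul_right (Nat.Coprime.mul_right (Nat.Coprime.mul_right ?_ ?_) ?_) ?_
    · exact Nat.Coprime.pow_right 2 (key 7 (by norm_num) f7)
    · exact key 11 (by norm_num) (by simpa using f11)
    · exact key 13 (by norm_num) (by simpa using f13)
    · exact key 23 (by norm_num) (by simpa using f23)
  refine hcop.dvd_of_dvd_mul_right (hdvd.trans (dvd_of_eq ?_))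
  norm_num

/-- **`x` of order prime to seven.** -/
theorem Data.deg (D : Data G) {χ : IrrCharacter G} {x : G} (h : One χ x) (hx7 : ¬ 7 ∣ orderOf x) :
    charDegree (χ : G → ℂ) = 14745600 := by
  have hs := D.simple
  have hN := D.card
  have h9 := D.nine_le h
  have hx11 : ¬ 11 ∣ orderOf x := not_dvd_order h (by norm_num) (by rw [hN]; norm_num) (by rw [hN]; norm_num)
    (fun z hz => by rw [D.c11 z hz]; norm_num)
  have hx13 : ¬ 13 ∣ orderOf x := not_dvd_order h (by norm_num) (by rw [hN]; norm_num) (by rw [hN]; norm_num)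
    (fun z hz => D.lt_13 hz)
  obtain ⟨P, hP⟩ := D.syl7
  obtain ⟨a, b, c, h1, ha, hb, hc, h2⟩ := three h (r₁ := 7) (n₁ := 2) (m₁ := 84852587888640000)
    (r₂ := 11) (n₂ := 1) (m₂ := 377979709685760000) (r₃ := 13) (n₃ := 1) (m₃ := 319828985118720000)
    (by norm_num) (by rw [hN]; norm_num) (by norm_num) hx7
    (by norm_num) (by rw [hN]; norm_num) (by norm_num) hx11
    (by norm_num) (by rw [hN]; norm_num) (by norm_num) hx13
    (by norm_num) (by norm_num) (by norm_num) D.no_77 D.no_91 D.no_143 P hP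
  have hC := D.tC h
  have hdv := D.dvd h
  rw [hN] at h1
  generalize charDegree (χ : G → ℂ) = d at *
  have h3 := (Nat.mul_le_mul_right _ h9).trans h1
  have ha6 : a < 6 := by
    by_contra hcon
    omega
  have hb2 : b < 2 := by
    by_contra hcon
    omega
  have hc2 : c < 2 := by
    by_contra hcon
    omega
  have hA : tA d = true := by
    unfold tA
    rw [List.any_eq_true]
    refine ⟨a, List.mem_range.2 ha6, ?_⟩
    rw [List.any_eq_true]
    refine ⟨b, List.mem_range.2 hb2, ?_⟩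
    rw [List.any_eq_true]
    refine ⟨c, List.mem_range.2 hc2, ?_⟩
    rw [Bool.and_eq_true, Bool.and_eq_true, Bool.and_eq_true, Bool.and_eq_true]
    refine ⟨?_, ?_, ?_, ?_, ?_⟩
    · rw [Nat.ble_eq]; exact h3
    · rcases Nat.eq_zero_or_pos a with h0 | h0
      · have := Nat.mod_eq_zero_of_dvd (ha h0)
        rw [h0, show (49 : ℕ) = 7 ^ 2 by norm_num, this]; rfl
      · have : Nat.beq a 0 = false := Bool.eq_false_iff.2 fun h => h0.ne' (Nat.eq_of_beq_eq_true h)
        rw [this]; rfl
    · rcases Nat.eq_zero_or_pos b with h0 | h0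
      · have := Nat.mod_eq_zero_of_dvd (hb h0)
        rw [pow_one] at this
        rw [h0, this]; rfl
      · have : Nat.beq b 0 = false := Bool.eq_false_iff.2 fun h => h0.ne' (Nat.eq_of_beq_eq_true h)
        rw [this]; rfl
    · rcases Nat.eq_zero_or_pos c with h0 | h0
      · have := Nat.mod_eq_zero_of_dvd (hc h0)
        rw [pow_one] at this
        rw [h0, this]; rfl
      · have : Nat.beq c 0 = false := Bool.eq_false_iff.2 fun h => h0.ne' (Nat.eq_of_beq_eq_true h)
        rw [this]; rfl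
    · rw [Nat.mod_eq_zero_of_dvd h2]; rfl
  have h4 := H417.Divs.all_divs l l_prime l_val checkA hdv
  simp only [hC, hA] at h4
  exact Nat.eq_of_beq_eq_true (by simpa using h4)

/-- **`x` of order divisible by seven.** -/
theorem Data.not_seven (D : Data G) {χ : IrrCharacter G} {x : G} (h : One χ x) (hx7 : 7 ∣ orderOf x) : False := by
  have hN := D.card
  have h9 := D.nine_le h
  have h14 : 14 ≤ cent x := by
    have h1 := hx7.trans (orderOf_dvd_cent x)
    omega
  obtain ⟨P, hP⟩ := D.syl7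
  obtain ⟨k, hk0, h1, h2⟩ := one_sing h (r := 7) (n := 2) (m := 84852587888640000)
    (by norm_num) (by rw [hN]; norm_num) (by norm_num) hx7 P hP
  have h11 := H733.OZ.pow_dvd h (r := 11) (n := 1) (by norm_num) (by rw [hN]; norm_num) (by rw [hN]; norm_num)
    (by omega)
  have h13 := H733.OZ.pow_dvd h (r := 13) (n := 1) (by norm_num) (by rw [hN]; norm_num) (by rw [hN]; norm_num)
    (by omega)
  have hT := cent_mul_le h
  have hC := D.tC h
  have hdv := D.dvd h
  have hd := one_lt_deg h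
  rw [hN] at h1 hT
  generalize charDegree (χ : G → ℂ) = d at *
  have h3 := (Nat.mul_le_mul_right _ h14).trans h1
  have h4 := (Nat.mul_le_mul_right _ h14).trans hT
  have hk4 : k < 4 := by
    by_contra hcon
    omega
  have hmod : (84852587888640000 * k) % 7 = (d ^ 2 - 1) % 7 := by
    have h5 : 1 ≤ d ^ 2 := Nat.one_le_pow _ _ (by omega)
    have h6 : ((d : ℤ) ^ 2 - 1) = ((d ^ 2 - 1 : ℕ) : ℤ) := by push_cast [h5]; ring
    rw [h6] at h2
    have h8 : ((84852587888640000 * k : ℕ) : ℤ) % 7 = ((d ^ 2 - 1 : ℕ) : ℤ) % 7 :=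
      Int.emod_eq_emod_iff_emod_sub_eq_zero.2 (Int.emod_eq_zero_of_dvd (by exact_mod_cast h2))
    exact_mod_cast h8
  have hB : tB d = true := by
    unfold tB
    rw [Bool.and_eq_true, Bool.and_eq_true, Bool.and_eq_true, List.any_eq_true]
    refine ⟨?_, ?_, ?_, k, List.mem_range.2 hk4, ?_⟩
    · rw [Nat.ble_eq]; exact h4
    · rw [pow_one] at h11
      rw [Nat.mod_eq_zero_of_dvd h11]; rfl
    · rw [pow_one] at h13
      rw [Nat.mod_eq_zero_of_dvd h13]; rfl
    · have : Nat.beq k 0 = false := Bool.eq_false_iff.2 fun h => hk0.ne' (Nat.eq_of_beq_eq_true h)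
      rw [this, hmod, Nat.beq_refl]; rfl
  have h5 := H417.Divs.all_divs l l_prime l_val checkB hdv
  simp only [hC, hB] at h5
  exact absurd h5 (by decide)

/-- **The degree `14745600`** does not occur. -/
theorem Data.not_deg (D : Data G) {χ : IrrCharacter G} {x : G} (h : One χ x)
    (hd : charDegree (χ : G → ℂ) = 14745600) : False := by
  have hN := D.card
  have h9 := D.nine_le h
  obtain ⟨t, ht, hct⟩ := D.dod
  have hrat : ∀ m : ℕ, m.Coprime (Nat.card G) → IsConj (t ^ m) t := by
    intro m hm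
    have hodd : m % 2 = 1 := by
      rw [hN] at hm
      by_contra hcon
      have h2 : 2 ∣ m := by omega
      have := Nat.Coprime.eq_one_of_dvd (Nat.Coprime.coprime_dvd_left h2 hm) (by norm_num)
      norm_num at this
    have h1 : t ^ m = t := by
      rw [← pow_mod_orderOf, ht, hodd, pow_one]
    rw [h1]
  obtain ⟨k, hk⟩ := H849.OZ.rat (χ := χ) hrat
  by_cases hx : IsConj x t
  · have h1 := H672.OZ.cent_eq_of_conj hx
    have h2 := cent_mul_le h
    rw [h1, hct, hd, hN] at h2
    norm_num at h2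
  · have h1 := H849.OZ.rat_dvd_deg t hk
    have hidx : (Subgroup.centralizer ({t} : Set G)).index = 10680579000 := by
      have h2 := Subgroup.card_mul_index (Subgroup.centralizer ({t} : Set G))
      have h3 : Nat.card (Subgroup.centralizer ({t} : Set G)) = 389283840 := hct
      rw [h3, hN] at h2
      omega
    rw [hidx, hd] at h1
    have h2 : ((2 ^ 13 : ℕ) : ℤ) ∣ k := by
      have h3 : ((2 : ℤ) ^ 13 * 8) ∣ (1335072375 * k) * 8 := by
        refine (show ((2 : ℤ) ^ 13 * 8) ∣ ((14745600 : ℕ) : ℤ) from ⟨225, by norm_num⟩).trans (h1.trans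
          (dvd_of_eq ?_))
        push_cast
        ring
      have h4 := (mul_dvd_mul_iff_right (show (8 : ℤ) ≠ 0 by norm_num)).1 h3
      have h5 : IsCoprime ((2 : ℤ) ^ 13) 1335072375 := by
        rw [Int.isCoprime_iff_gcd_eq_one]
        norm_num
      exact_mod_cast h5.dvd_of_dvd_mul_left h4
    have h3 := H849.OZ.one_class h hrat hk hx h2
    rw [hct] at h3
    have h4 := (Nat.mul_le_mul_right ((2 ^ 13) ^ 2 - 1) h9).trans h3
    norm_num at h4

/-- **No irreducible character with exactly one class of zeros.** -/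
theorem Data.false (D : Data G) {χ : IrrCharacter G} {x : G} (h : One χ x) : False := by
  by_cases hx : 7 ∣ orderOf x
  · exact D.not_seven h hx
  · exact D.not_deg h (D.deg h hx)

end Cfsg.Agent.H678.OZ.CoOne
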