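import Cfsg.Agent.CoOneType.CoOneE
import Cfsg.Agent.CoOneType.ClosingCo1
import Cfsg.Agent.MonsterU.CoFrameF
import Cfsg.Agent.S0361

/-!
# The centralizer of a dodecad involution of `Co1` has order `389283840` (helper678)
-/

set_option autoImplicit false

namespace Cfsg.Agent.H678.OZ.CoOneDod

open Cfsg Subgroup
open Cfsg.Agent.SporadicA.Co0Mono Cfsg.Agent.SporadicA.Co1Simple
open Cfsg.Agent.CoOneType
open Cfsg.Agent.CoOneType.CoOneE (pr pr_surjective centralizer_dodecad_le sup_mem_dodecads sup_inj
  sup_wordPerm wordOf sup_wordOf wordOf_sup pr_sign_eq_iff pr_sign_add_allOne isConj_dodecad_iff N_normalises)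
open Cfsg.Agent.CoOneType.SignFacts (wt sup wt_add_allOne)
open Cfsg.Agent.MonsterU.CoFrameF (F card_F)
open scoped Pointwise

theorem finite_Co1 : Finite Spor.Co1 := Nat.finite_of_card_ne_zero (by rw [Cfsg.Agent.S0399.result.2]; norm_num)

/-- the sign changes on dodecads -/
def T : Set Spor.Co1 := {u | ∃ c : golayCode, wt c = 12 ∧ u = pr (signCo0 c)}

theorem card_words : Nat.card {c : golayCode // wt c = 12} = 2576 := by
  rw [← Cfsg.Agent.S0361.result, ← Nat.card_coe_set_eq]
  refine Nat.card_congr ⟨fun c => ⟨sup c, (sup_mem_dodecads c).2 c.2⟩, fun s => ⟨wordOf s, ?_⟩, ?_, ?_⟩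
  · rw [← sup_mem_dodecads, sup_wordOf s.2.1]
    exact s.2
  · intro c
    exact Subtype.ext (wordOf_sup c)
  · intro s
    exact Subtype.ext (sup_wordOf s.2.1)

theorem card_T : Nat.card T = 1288 := by
  classical
  have hfin : Finite {c : golayCode // wt c = 12} := Nat.finite_of_card_ne_zero (by rw [card_words]; norm_num)
  have := Fintype.ofFinite {c : golayCode // wt c = 12}
  have hfG := finite_Co1
  have := Fintype.ofFinite T
  let f : {c : golayCode // wt c = 12} → T := fun c => ⟨pr (signCo0 c), c, c.2, rfl⟩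
  have h1 := Finset.card_eq_sum_card_fiberwise (f := f) (s := Finset.univ) (t := Finset.univ)
    (fun _ _ => Finset.mem_univ _)
  have h2 : ∀ u : T, (Finset.univ.filter fun c => f c = u).card = 2 := by
    rintro ⟨u, c, hc, rfl⟩
    have hc' : wt (c + allOne) = 12 := by
      have := wt_add_allOne c
      omega
    rw [Finset.card_eq_two]
    refine ⟨⟨c, hc⟩, ⟨c + allOne, hc'⟩, ?_, ?_⟩
    · intro h
      have h3 : c = c + allOne := congrArg Subtype.val h
      have h4 : allOne = 0 := by
        have := congrArg (fun t => t - c) h3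
        simpa using this.symm
      have h5 := congrArg (fun w : golayCode => (w : GolayPt → ZMod 2) none) h4
      exact absurd h5 (by decide)
    · ext ⟨e, he⟩
      rw [Finset.mem_filter, Finset.mem_insert, Finset.mem_singleton]
      constructor
      · rintro ⟨-, h⟩
        have h3 : pr (signCo0 e) = pr (signCo0 c) := congrArg Subtype.val h
        rcases (pr_sign_eq_iff c e).1 h3.symm with h4 | h4
        · exact Or.inl (Subtype.ext h4)
        · exact Or.inr (Subtype.ext h4)
      · intro h
        refine ⟨Finset.mem_univ _, Subtype.ext ?_⟩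
        rcases h with h | h
        · have h4 : e = c := congrArg Subtype.val h
          show pr (signCo0 e) = pr (signCo0 c)
          rw [h4]
        · have h4 : e = c + allOne := congrArg Subtype.val h
          show pr (signCo0 e) = pr (signCo0 c)
          rw [h4, pr_sign_add_allOne]
  rw [Finset.sum_congr rfl fun u _ => h2 u, Finset.sum_const, smul_eq_mul, Finset.card_univ, Finset.card_univ,
    ← Nat.card_eq_fintype_card, ← Nat.card_eq_fintype_card, card_words] at h1
  omega

/-- the conjugation action of `F` -/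
@[reducible] def act : MulAction F Spor.Co1 := MulAction.compHom Spor.Co1 (MulAut.conj.comp F.subtype)

attribute [local instance] act

theorem orbit (d : golayCode) (hd : wt d = 12) :
    MulAction.orbit F (pr (signCo0 d)) = T := by
  ext u
  constructor
  · rintro ⟨⟨_, g, hg, rfl⟩, rfl⟩
    obtain ⟨c, hc⟩ := N_normalises g hg d
    have h1 : pr g * pr (signCo0 d) * (pr g)⁻¹ = pr (signCo0 c) := by
      rw [← map_inv, ← map_mul, ← map_mul, hc]
    refine ⟨c, (isConj_dodecad_iff d c hd).1 (isConj_iff.2 ⟨pr g, h1⟩), ?_⟩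
    exact h1
  · rintro ⟨c, hc, rfl⟩
    obtain ⟨σ, hσ⟩ := Cfsg.Agent.S0368.result _ _ ((sup_mem_dodecads d).2 hd) ((sup_mem_dodecads c).2 hc)
    rw [← sup_wordPerm] at hσ
    have h2 := sup_inj hσ
    refine ⟨⟨pr (permCo0 σ), permCo0 σ, perm_mem_N σ, rfl⟩, ?_⟩
    show pr (permCo0 σ) * pr (signCo0 d) * (pr (permCo0 σ))⁻¹ = pr (signCo0 c)
    rw [← map_inv, ← map_mul, ← map_mul, perm_mul_sign_mul_inv, h2]

/-- **`|C(2C)| = 389283840`.** -/
theorem card_cent (d : golayCode) (hd : wt d = 12) :
    Nat.card (centralizer ({pr (signCo0 d)} : Set Spor.Co1)) = 389283840 := by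
  have hfG := finite_Co1
  have h1 := Nat.card_congr (MulAction.orbitProdStabilizerEquivGroup F (pr (signCo0 d)))
  rw [Nat.card_prod, orbit d hd, card_T, card_F] at h1
  have h2 : Nat.card (MulAction.stabilizer F (pr (signCo0 d)))
      = Nat.card (centralizer ({pr (signCo0 d)} : Set Spor.Co1)) := by
    refine Nat.card_congr ⟨fun g => ⟨g, ?_⟩, fun g => ⟨⟨g, centralizer_dodecad_le d hd g.2⟩, ?_⟩, ?_, ?_⟩
    · have h3 : (g : F) • pr (signCo0 d) = pr (signCo0 d) := g.2
      have h4 : ((g : F) : Spor.Co1) * pr (signCo0 d) * ((g : F) : Spor.Co1)⁻¹ = pr (signCo0 d) := h3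
      rw [mem_centralizer_singleton_iff]
      exact mul_inv_eq_iff_eq_mul.1 h4
    · have h3 := mem_centralizer_singleton_iff.1 g.2
      rw [MulAction.mem_stabilizer_iff]
      show (g : Spor.Co1) * pr (signCo0 d) * (g : Spor.Co1)⁻¹ = pr (signCo0 d)
      rw [h3, mul_inv_cancel_right]
    · intro g; rfl
    · intro g; rfl
  rw [h2] at h1
  omega

/-- **A dodecad involution.** -/
theorem exists_dod : ∃ t : Spor.Co1, orderOf t = 2 ∧ Nat.card (centralizer ({t} : Set Spor.Co1)) = 389283840 := by
  obtain ⟨d, hd⟩ := ClosingCo1.exists_dodecad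
  refine ⟨pr (signCo0 d), ?_, card_cent d hd⟩
  have : Fact (Nat.Prime 2) := ⟨Nat.prime_two⟩
  apply orderOf_eq_prime
  · rw [← map_pow, pow_two, signCo0_mul_self, map_one]
  · intro h
    have h1 := card_cent d hd
    rw [h] at h1
    have h2 : centralizer ({1} : Set Spor.Co1) = ⊤ := by
      rw [eq_top_iff]
      intro g _
      rw [mem_centralizer_singleton_iff, mul_one, one_mul]
    rw [h2, card_top, Cfsg.Agent.S0399.result.2] at h1
    norm_num at h1

end Cfsg.Agent.H678.OZ.CoOneDod
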