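import Cfsg.Agent.H678.PV.RowCoOneB

/-!
# The elements of order 7 of `Co1` and the centralizer of a Sylow 7-subgroup (helper678)
-/

set_option autoImplicit false

namespace Cfsg.Agent.H678.OZ.CoOneSeven

open Cfsg Subgroup Equiv

theorem finite_Co1 : Finite Spor.Co1 := Nat.finite_of_card_ne_zero (by rw [Cfsg.Agent.S0399.result.2]; norm_num)

/-- the centralizer of an element of order seven of `Perm (Fin 7)` -/
theorem mem_zpowers_of {b a : Perm (Fin 7)} (hb : orderOf b = 7) (hab : a * b = b * a) : ∃ k : ℕ, a = b ^ k := by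
  have hc : b.IsCycle := Perm.isCycle_of_prime_order'' (by norm_num) (by rw [hb, Fintype.card_fin])
  have hsup : b.support = Finset.univ := by
    rw [← Finset.card_eq_iff_eq_univ, ← hc.orderOf, hb, Fintype.card_fin]
  have hne : ∀ i : Fin 7, b i ≠ i := fun i => by
    rw [← Perm.mem_support, hsup]
    exact Finset.mem_univ _
  obtain ⟨k, hk⟩ := hc.exists_pow_eq (hne 0) (hne (a 0))
  refine ⟨k, ?_⟩
  ext1 i
  obtain ⟨j, hj⟩ := hc.exists_pow_eq (hne 0) (hne i)
  have h1 : Commute a (b ^ j) := (show Commute a b from hab).pow_right j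
  have h2 : Commute (b ^ k) (b ^ j) := (Commute.refl b).pow_pow k j
  rw [← hj, ← Perm.mul_apply, h1.eq, Perm.mul_apply, ← hk, ← Perm.mul_apply, ← h2.eq, Perm.mul_apply]

/-- an element of order seven with centralizer `7 × A₇` -/
theorem exists_x : ∃ x : Spor.Co1, orderOf x = 7 ∧
    Nonempty (centralizer ({x} : Set Spor.Co1) ≃* alternatingGroup (Fin 7) × Multiplicative (ZMod 7)) := by
  have hp : Fact (Nat.Prime 7) := ⟨by norm_num⟩
  have := finite_Co1
  obtain ⟨V, hV, ⟨e⟩⟩ := H813.CoSevenMain.cent_seven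
  obtain ⟨v, hv⟩ := exists_prime_orderOf_dvd_card' (G := V) 7 (by rw [hV])
  obtain ⟨x, hx⟩ : ∃ x : Spor.Co1, x = (v : Spor.Co1) := ⟨_, rfl⟩
  have hxo : orderOf x = 7 := by rw [hx, Subgroup.orderOf_coe, hv]
  have hxV : zpowers x = V := by
    refine Subgroup.eq_of_le_of_card_ge (by rw [zpowers_le, hx]; exact v.2) ?_
    rw [Nat.card_zpowers, hxo, hV]
  have hcx : centralizer (V : Set Spor.Co1) = centralizer ({x} : Set Spor.Co1) := by
    rw [← hxV, H870.IMLocal.centralizer_zpowers]
  rw [hcx] at e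
  exact ⟨x, hxo, ⟨e.trans MulEquiv.prodComm⟩⟩

theorem card_x {x : Spor.Co1}
    (e : centralizer ({x} : Set Spor.Co1) ≃* alternatingGroup (Fin 7) × Multiplicative (ZMod 7)) :
    Nat.card (centralizer ({x} : Set Spor.Co1)) = 17640 := by
  rw [Nat.card_congr e.toEquiv, Nat.card_prod, H678.PV.card_alt 7 (by norm_num), Nat.card_congr Multiplicative.toAdd,
    Nat.card_zmod]
  rfl

/-- **Two elements of order seven.** -/
theorem two7 : ∃ y₁ y₂ : Spor.Co1, orderOf y₁ = 7 ∧ orderOf y₂ = 7 ∧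
    Nat.card (centralizer ({y₁} : Set Spor.Co1)) = 17640 ∧ Nat.card (centralizer ({y₂} : Set Spor.Co1)) = 1176 := by
  obtain ⟨x, hx, ⟨e⟩⟩ := exists_x
  exact ⟨x, CpAutMSeven.RanksH.s0, hx, CpAutMSeven.RanksH.orderOf_s0, card_x e, H678.PV.CoSeven.card_s0⟩

/-- **The centralizer of a Sylow 7-subgroup.** -/
theorem syl7 : ∃ P : Sylow 7 Spor.Co1,
    ∀ g ∈ centralizer ((P : Subgroup Spor.Co1) : Set Spor.Co1), ¬ 7 ∣ orderOf g → g = 1 := by
  have h7 : Nat.Prime 7 := by norm_num
  have hp : Fact (Nat.Prime 7) := ⟨h7⟩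
  have := finite_Co1
  have hcard := Cfsg.Agent.S0399.result.2
  obtain ⟨x, hx, ⟨e⟩⟩ := exists_x
  have hxP : IsPGroup 7 (zpowers x) := IsPGroup.of_card (n := 1) (by rw [Nat.card_zpowers, hx, pow_one])
  obtain ⟨P, hP⟩ := hxP.exists_le_sylow
  have hxm : x ∈ (P : Subgroup Spor.Co1) := hP (mem_zpowers x)
  refine ⟨P, ?_⟩
  -- the order of `P`
  have h49 : 7 ^ 2 ∣ Nat.card (P : Subgroup Spor.Co1) :=
    P.pow_dvd_card_of_pow_dvd_card (by rw [hcard]; norm_num)
  have h343 : ¬ 7 ^ 3 ∣ Nat.card (P : Subgroup Spor.Co1) := by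
    intro h
    have := h.trans (Subgroup.card_subgroup_dvd_card (P : Subgroup Spor.Co1))
    rw [hcard] at this
    norm_num at this
  obtain ⟨m, hm⟩ := IsPGroup.iff_card.1 P.2
  have hm2 : m = 2 := by
    rw [hm] at h49 h343
    have h1 := (Nat.pow_dvd_pow_iff_le_right (by norm_num : 1 < 7)).1 h49
    have h2 : ¬ 3 ≤ m := fun h => h343 (pow_dvd_pow 7 h)
    omega
  rw [hm2] at hm
  have hcomm : ∀ a b : (P : Subgroup Spor.Co1), a * b = b * a := fun a b =>
    (IsPGroup.isMulCommutative_of_card_eq_prime_sq (p := 7) hm).is_comm.comm a b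
  have hle : (P : Subgroup Spor.Co1) ≤ centralizer ({x} : Set Spor.Co1) := by
    intro g hg
    rw [mem_centralizer_singleton_iff]
    exact congrArg Subtype.val (hcomm ⟨g, hg⟩ ⟨x, hxm⟩)
  -- the projection of `P` to `A₇` is not trivial
  let f : (P : Subgroup Spor.Co1) →* alternatingGroup (Fin 7) :=
    ((MonoidHom.fst _ _).comp e.toMonoidHom).comp (Subgroup.inclusion hle)
  let f' : (P : Subgroup Spor.Co1) →* Multiplicative (ZMod 7) :=
    ((MonoidHom.snd _ _).comp e.toMonoidHom).comp (Subgroup.inclusion hle)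
  obtain ⟨z, hz⟩ : ∃ z : (P : Subgroup Spor.Co1), f z ≠ 1 := by
    by_contra hcon
    push Not at hcon
    have hinj : Function.Injective f' := by
      rw [injective_iff_map_eq_one]
      intro z hz
      have h1 : e (Subgroup.inclusion hle z) = 1 := Prod.ext (hcon z) hz
      have h2 := (MulEquiv.map_eq_one_iff e).1 h1
      exact Subtype.ext (congrArg (fun w : centralizer ({x} : Set Spor.Co1) => (w : Spor.Co1)) h2)
    have h1 := Nat.card_le_card_of_injective f' hinj
    rw [hm, Nat.card_congr Multiplicative.toAdd, Nat.card_zmod] at h1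
    norm_num at h1
  have hbo : orderOf (((f z : alternatingGroup (Fin 7))) : Perm (Fin 7)) = 7 := by
    rw [Subgroup.orderOf_coe]
    have h1 : orderOf (f z) ∣ 7 ^ 2 := (orderOf_map_dvd f z).trans (hm ▸ orderOf_dvd_natCard z)
    obtain ⟨k, hk, hk'⟩ := (Nat.dvd_prime_pow h7).1 h1
    have h2 : orderOf (f z) ∣ Nat.card (alternatingGroup (Fin 7)) := orderOf_dvd_natCard _
    rw [H678.PV.card_alt 7 (by norm_num)] at h2
    interval_cases k
    · rw [pow_zero, orderOf_eq_one_iff] at hk'
      exact absurd hk' hz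
    · rw [hk', pow_one]
    · rw [hk'] at h2
      exact absurd h2 (by decide)
  intro g hg hg7
  have hgx : g ∈ centralizer ({x} : Set Spor.Co1) := by
    rw [mem_centralizer_singleton_iff]
    exact ((mem_centralizer_iff.1 hg) x hxm).symm
  set w : centralizer ({x} : Set Spor.Co1) := ⟨g, hgx⟩ with hw
  have hwo : orderOf (e w) = orderOf g := by
    rw [MulEquiv.orderOf_eq, hw, Subgroup.orderOf_mk]
  have hc2 : (e w).2 = 1 := by
    have h1 : orderOf (e w).2 ∣ 7 := by
      have := orderOf_dvd_natCard (e w).2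
      rwa [Nat.card_congr Multiplicative.toAdd, Nat.card_zmod] at this
    have h2 : orderOf (e w).2 ∣ orderOf g := by
      rw [← hwo]
      exact orderOf_map_dvd (MonoidHom.snd _ _) (e w)
    rcases (Nat.dvd_prime h7).1 h1 with h3 | h3
    · exact orderOf_eq_one_iff.1 h3
    · rw [h3] at h2
      exact absurd h2 hg7
  have hc1 : (e w).1 = 1 := by
    have h1 : (e w).1 * f z = f z * (e w).1 := by
      have h2 : w * Subgroup.inclusion hle z = Subgroup.inclusion hle z * w := by
        apply Subtype.ext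
        show g * (z : Spor.Co1) = (z : Spor.Co1) * g
        exact ((mem_centralizer_iff.1 hg) z z.2).symm
      have h3 := congrArg e h2
      rw [map_mul, map_mul] at h3
      exact congrArg Prod.fst h3
    obtain ⟨k, hk⟩ := mem_zpowers_of hbo (congrArg Subtype.val h1)
    have h4 : orderOf (e w).1 ∣ 7 := by
      rw [← Subgroup.orderOf_coe, hk]
      exact (orderOf_pow_dvd k).trans (dvd_of_eq hbo)
    have h5 : orderOf (e w).1 ∣ orderOf g := by
      rw [← hwo]
      exact orderOf_map_dvd (MonoidHom.fst _ _) (e w)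
    rcases (Nat.dvd_prime h7).1 h4 with h3 | h3
    · exact orderOf_eq_one_iff.1 h3
    · rw [h3] at h5
      exact absurd h5 hg7
  have h6 : e w = 1 := Prod.ext hc1 hc2
  have h7 := (MulEquiv.map_eq_one_iff e).1 h6
  exact congrArg (fun w : centralizer ({x} : Set Spor.Co1) => (w : Spor.Co1)) h7

end Cfsg.Agent.H678.OZ.CoOneSeven
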