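import Cfsg.Agent.H732.VZ.Exc
import Cfsg.Agent.H733.OZ.Good
import Cfsg.Agent.Blocks.OrbitSum

/-!
# One vanishing class: the excess over the elements of order divisible by `r`

`h : One χ x`, `d = χ(1)`, `|G| = r ^ n * m`, `r ∤ m`, `x` of order prime to `r`.  The excess
`∑ (|χ|² - 1)` over the elements of order divisible by `r` is `m * k` with a natural number `k`
(`exists_k`), and

* `k = 0` implies `r ^ n ∣ d² - 1`;
* `r ∣ m * k + (d² - 1)` if only `1` is `r`-regular and centralizes a Sylow `r`-subgroup.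

The excesses for different primes add up if no element order is divisible by two of them
(`three`): `|C(x)| * (m₁ k₁ + m₂ k₂ + m₃ k₃ + (d² - 1)) ≤ |G|`.
-/

set_option autoImplicit false

open Cfsg Cfsg.Agent.Characters Cfsg.Agent.H686.CharKit Cfsg.Agent.H732.VZ
open Cfsg.Agent.H604.OZ (cent ne_one one_lt_deg orderOf_eq_of_conj)
open Cfsg.Agent.H733.OZ (sing reg mem_sing mem_reg gal_sing gal_reg)
open scoped ComplexConjugate

namespace Cfsg.Agent.H678.OZ

universe u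

variable {G : Type u} [Group G]

/-- If `|χ| = 1` on the elements of order divisible by `r` then `|G|_r` divides `d² - 1`. -/
theorem pow_dvd_of [Finite G] {χ : IrrCharacter G} (hd : 1 < charDegree (χ : G → ℂ)) {r n : ℕ}
    (hr : r.Prime) (h1 : r ^ n ∣ Nat.card G) (h2 : ¬ r ^ (n + 1) ∣ Nat.card G)
    (h : ∀ g : G, r ∣ orderOf g → Complex.normSq ((χ : G → ℂ) g) = 1) :
    r ^ n ∣ charDegree (χ : G → ℂ) ^ 2 - 1 := by
  classical
  have : Fact r.Prime := ⟨hr⟩
  obtain ⟨P⟩ : Nonempty (Sylow r G) := inferInstance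
  have hP : r ^ n ∣ Nat.card (P : Subgroup G) := P.pow_dvd_card_of_pow_dvd_card h1
  have hP' : Nat.card (P : Subgroup G) ∣ r ^ n := by
    obtain ⟨m, hm⟩ := IsPGroup.iff_card.1 P.2
    rw [hm]
    refine pow_dvd_pow r ?_
    by_contra hlt
    exact h2 ((pow_dvd_pow r (by omega : n + 1 ≤ m)).trans
      (hm ▸ Subgroup.card_subgroup_dvd_card _))
  have hPc : Nat.card (P : Subgroup G) = r ^ n := Nat.dvd_antisymm hP' hP
  have := Fintype.ofFinite (P : Subgroup G)
  have hres : IsCharacter (P : Subgroup G) (fun y : (P : Subgroup G) => (χ : G → ℂ) y) :=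
    Core.isCharacter_comp (P : Subgroup G).subtype (Core.isIrr_isCharacter χ.2)
  obtain ⟨m, hm⟩ := Core.classInner_isNat hres hres
  unfold classInner at hm
  have hPC : (Nat.card (P : Subgroup G) : ℂ) ≠ 0 := by exact_mod_cast Nat.card_pos.ne'
  have h3 : ∑ y : (P : Subgroup G), (χ : G → ℂ) y * (starRingEnd ℂ) ((χ : G → ℂ) y)
      = (Nat.card (P : Subgroup G) : ℂ) * m := by
    rw [← hm]
    field_simp
  have h4 : ∀ y : (P : Subgroup G), y ≠ 1 →
      (χ : G → ℂ) y * (starRingEnd ℂ) ((χ : G → ℂ) y) = 1 := by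
    intro y hy
    rw [Complex.mul_conj, h, Complex.ofReal_one]
    obtain ⟨k, hk⟩ := IsPGroup.iff_orderOf.1 P.2 y
    have hk0 : k ≠ 0 := by
      rintro rfl
      rw [pow_zero, orderOf_eq_one_iff] at hk
      exact hy hk
    rw [Subgroup.orderOf_coe, hk]
    exact dvd_pow_self r hk0
  rw [← Finset.add_sum_erase _ _ (Finset.mem_univ (1 : (P : Subgroup G))),
    Finset.sum_congr rfl fun y hy => h4 y (Finset.ne_of_mem_erase hy), Finset.sum_const,
    nsmul_eq_mul, mul_one, Finset.card_erase_of_mem (Finset.mem_univ _), Finset.card_univ,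
    ← Nat.card_eq_fintype_card, hPc, OneMemClass.coe_one, ← charDegree_irr χ,
    Complex.conj_natCast] at h3
  have hrn : 1 ≤ r ^ n := Nat.one_le_pow _ _ hr.pos
  have h5 : charDegree (χ : G → ℂ) * charDegree (χ : G → ℂ) + (r ^ n - 1) = r ^ n * m := by
    exact_mod_cast h3
  have h6 : 1 ≤ charDegree (χ : G → ℂ) ^ 2 := Nat.one_le_pow _ _ (by omega)
  have h7 : charDegree (χ : G → ℂ) ^ 2 - 1 + r ^ n = r ^ n * m := by
    rw [← h5, sq] at *
    omega
  exact (Nat.dvd_add_left (dvd_refl _)).1 (h7 ▸ Dvd.intro _ rfl)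

section Fin

variable [Fintype G]

/-- The congruence of the excess modulo `r`. -/
theorem modEq {χ : IrrCharacter G} {r : ℕ} (hr : r.Prime)
    (P : Sylow r G)
    (hP : ∀ g ∈ Subgroup.centralizer ((P : Subgroup G) : Set G), ¬ r ∣ orderOf g → g = 1) {e : ℤ}
    (he : (∑ g ∈ reg G r, Complex.normSq ((χ : G → ℂ) g)) - (reg G r).card = e) :
    (r : ℤ) ∣ e - ((charDegree (χ : G → ℂ) : ℤ) ^ 2 - 1) := by
  classical
  have : Fact r.Prime := ⟨hr⟩
  obtain ⟨M, hM', hrM⟩ := CharactersDeep.BrauerLocal.exists_maximal r hr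
  have hM : M.IsPrime := hM'.isPrime
  set f : G → AlgInt := fun g => if r ∣ orderOf g then 0 else av χ g * av χ g⁻¹ - 1 with hf
  obtain ⟨a, ha⟩ := Cfsg.Agent.Blocks.OrbitSum.sum_eq_sum_centralizer_add_smul (p := r)
    (P : Subgroup G) P.2 f (fun u _ y => by
      have h1 : orderOf (u * y * u⁻¹) = orderOf y := by
        have := (MulAut.conj u).orderOf_eq y
        rwa [MulAut.conj_apply] at this
      simp only [hf]
      rw [h1]
      have h2 : av χ (u * y * u⁻¹) = av χ y := Subtype.ext (Core.isIrr_isClassFunction χ.2 y u)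
      have h3 : av χ (u * y * u⁻¹)⁻¹ = av χ y⁻¹ := by
        have h4 : (u * y * u⁻¹)⁻¹ = u * y⁻¹ * u⁻¹ := by group
        rw [h4]
        exact Subtype.ext (Core.isIrr_isClassFunction χ.2 y⁻¹ u)
      rw [h2, h3])
  have h1 : (∑ g ∈ Finset.univ.filter
      (· ∈ Subgroup.centralizer ((P : Subgroup G) : Set G)), f g) = f 1 := by
    rw [Finset.sum_eq_single 1]
    · intro g hg hg1
      rw [Finset.mem_filter] at hg
      simp only [hf]
      by_cases hgr : r ∣ orderOf g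
      · rw [if_pos hgr]
      · exact absurd (hP g hg.2 hgr) hg1
    · intro h
      exact absurd (Finset.mem_filter.2 ⟨Finset.mem_univ _, one_mem _⟩) h
  have h2 : f 1 = (((charDegree (χ : G → ℂ) : ℤ) ^ 2 - 1 : ℤ) : AlgInt) := by
    simp only [hf]
    rw [orderOf_one, if_neg (fun h => hr.one_lt.ne' (Nat.dvd_one.1 h)), inv_one]
    apply Subtype.ext
    push_cast
    rw [av_coe, ← charDegree_irr χ]
    ring
  have h3 : ∑ g : G, f g = (e : AlgInt) := by
    apply Subtype.ext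
    push_cast
    have h4 : ((e : ℝ) : ℂ) = (((∑ g ∈ reg G r, Complex.normSq ((χ : G → ℂ) g))
        - (reg G r).card : ℝ) : ℂ) := by rw [he]
    rw [Complex.ofReal_intCast] at h4
    rw [h4]
    push_cast
    have h5 : ∀ g : G, ((f g : AlgInt) : ℂ)
        = if r ∣ orderOf g then 0 else ((Complex.normSq ((χ : G → ℂ) g) : ℂ) - 1) := by
      intro g
      simp only [hf]
      by_cases hgr : r ∣ orderOf g
      · rw [if_pos hgr, if_pos hgr]
        rfl
      · rw [if_neg hgr, if_neg hgr]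
        push_cast
        rw [av_coe, av_coe, Core.isCharacter_apply_inv (Core.isIrr_isCharacter χ.2),
          Complex.mul_conj]
    rw [Finset.sum_congr rfl fun g _ => h5 g]
    have h6 : ∀ g : G, (if r ∣ orderOf g then (0 : ℂ) else ((Complex.normSq ((χ : G → ℂ) g) : ℂ) - 1))
        = if ¬ r ∣ orderOf g then ((Complex.normSq ((χ : G → ℂ) g) : ℂ) - 1) else 0 := by
      intro g
      by_cases hgr : r ∣ orderOf g
      · rw [if_pos hgr, if_neg (not_not.2 hgr)]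
      · rw [if_neg hgr, if_pos hgr]
    rw [Finset.sum_congr rfl fun g _ => h6 g, ← Finset.sum_filter, Finset.sum_sub_distrib,
      Finset.sum_const, nsmul_eq_mul, mul_one]
    rfl
  rw [h1, h2, h3] at ha
  rw [← int_mem_iff hr hM hrM]
  have h4 : ((e - ((charDegree (χ : G → ℂ) : ℤ) ^ 2 - 1) : ℤ) : AlgInt) = (r : AlgInt) * a := by
    rw [Int.cast_sub, ha, add_sub_cancel_left, nsmul_eq_mul]
  rw [h4]
  exact M.mul_mem_right _ hrM

/-- **The excess over the elements of order divisible by `r`.** -/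
theorem exists_k {χ : IrrCharacter G} {x : G} (h : One χ x) {r n m : ℕ} (hr : r.Prime)
    (hN : Nat.card G = r ^ n * m) (hm : ¬ r ∣ m) (hx : ¬ r ∣ orderOf x) :
    ∃ k : ℕ, Ex χ (sing G r) (m * k) ∧
      (k = 0 → r ^ n ∣ charDegree (χ : G → ℂ) ^ 2 - 1) ∧
      ∀ P : Sylow r G, (∀ g ∈ Subgroup.centralizer ((P : Subgroup G) : Set G),
        ¬ r ∣ orderOf g → g = 1) → r ∣ m * k + (charDegree (χ : G → ℂ) ^ 2 - 1) := by
  classical
  have hd := one_lt_deg h
  have h1 : r ^ n ∣ Nat.card G := ⟨m, hN⟩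
  have h2 : ¬ r ^ (n + 1) ∣ Nat.card G := by
    rw [hN, pow_succ]
    exact fun h => hm ((Nat.mul_dvd_mul_iff_left (pow_pos hr.pos n)).1 h)
  obtain ⟨k', hk'⟩ := H733.OZ.sum_reg_sub χ hr h1 h2
  have hrpos : (0 : ℝ) < (r : ℝ) ^ n := by
    have := hr.pos
    positivity
  have hE : (∑ g ∈ reg G r, Complex.normSq ((χ : G → ℂ) g)) - (reg G r).card = (m : ℝ) * k' := by
    have h3 : ((r : ℝ) ^ n) * ((∑ g ∈ reg G r, Complex.normSq ((χ : G → ℂ) g)) - (reg G r).card)
        = (r : ℝ) ^ n * ((m : ℝ) * k') := by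
      rw [hk', hN]
      push_cast
      ring
    exact mul_left_cancel₀ hrpos.ne' h3
  have hcomp : (reg G r)ᶜ = sing G r := by
    ext g
    rw [Finset.mem_compl, mem_reg, mem_sing, not_not]
  have htot := H695.OneZero.sum_normSq χ
  rw [← Finset.sum_add_sum_compl (reg G r), hcomp] at htot
  have hcard : ((reg G r).card : ℝ) + (sing G r).card = Fintype.card G := by
    rw [← Nat.cast_add, ← hcomp, Finset.card_add_card_compl]
  have hsing0 : ∀ g ∈ sing G r, (χ : G → ℂ) g ≠ 0 := by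
    intro g hg h0
    rw [mem_sing, ← orderOf_eq_of_conj (h.uniq g h0)] at hg
    exact hx hg
  have hlow := H695.OneZero.card_le χ (gal_sing r) hsing0
  have hmpos : (0 : ℝ) < m := by
    have : m ≠ 0 := by
      rintro rfl
      exact hm (dvd_zero r)
    exact_mod_cast Nat.pos_of_ne_zero this
  have hk0 : k' ≤ 0 := by
    by_contra hcon
    rw [not_le] at hcon
    have : (0 : ℝ) < k' := by exact_mod_cast hcon
    have := mul_pos hmpos this
    linarith
  obtain ⟨k, hk⟩ : ∃ k : ℕ, k' = -(k : ℤ) := ⟨(-k').toNat, by omega⟩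
  have hkr : (k' : ℝ) = -(k : ℝ) := by rw [hk]; push_cast; ring
  refine ⟨k, ⟨gal_sing r, hsing0, ?_⟩, ?_, ?_⟩
  · push_cast
    rw [hkr] at hE
    linarith
  · rintro rfl
    refine pow_dvd_of hd hr h1 h2 fun g hg => ?_
    refine H733.OZ.normSq_eq_one_of_sum χ (gal_sing r) hsing0 ?_ (mem_sing.2 hg)
    rw [hkr] at hE
    norm_num at hE
    linarith
  · intro P hP
    have h3 := modEq (χ := χ) hr P hP (e := (m : ℤ) * k') (by
      rw [hE]
      push_cast
      ring)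
    have h4 : 1 ≤ charDegree (χ : G → ℂ) ^ 2 := Nat.one_le_pow _ _ (by omega)
    have h5 : ((m * k + (charDegree (χ : G → ℂ) ^ 2 - 1) : ℕ) : ℤ)
        = -((m : ℤ) * k' - ((charDegree (χ : G → ℂ) : ℤ) ^ 2 - 1)) := by
      rw [hk]
      push_cast [h4]
      ring
    rw [← Int.natCast_dvd_natCast, h5]
    exact (dvd_neg).2 h3

/-- the excess at the identity -/
theorem ex_one {χ : IrrCharacter G} {x : G} (h : One χ x) :
    Ex χ ({1} : Finset G) (charDegree (χ : G → ℂ) ^ 2 - 1) := by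
  classical
  have hd := one_lt_deg h
  refine ⟨fun g hg k _ => ?_, fun g hg => ?_, ?_⟩
  · rw [Finset.mem_singleton] at hg ⊢
    rw [hg, one_pow]
  · rw [Finset.mem_singleton] at hg
    rw [hg, ← charDegree_irr χ]
    have : charDegree (χ : G → ℂ) ≠ 0 := by omega
    exact_mod_cast this
  · rw [Finset.card_singleton, Finset.sum_singleton, ← charDegree_irr χ, Complex.normSq_natCast]
    have h4 : 1 ≤ charDegree (χ : G → ℂ) ^ 2 := Nat.one_le_pow _ _ (by omega)
    push_cast [h4]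
    nlinarith

/-- **The excess over the elements of order prime to `r`**, `x` of order divisible by `r`. -/
theorem exists_reg_k {χ : IrrCharacter G} {x : G} (h : One χ x) {r n m : ℕ} (hr : r.Prime)
    (hN : Nat.card G = r ^ n * m) (hm : ¬ r ∣ m) (hx : r ∣ orderOf x) :
    ∃ k : ℕ, 0 < k ∧ Ex χ (reg G r) (m * k) ∧
      ∀ P : Sylow r G, (∀ g ∈ Subgroup.centralizer ((P : Subgroup G) : Set G),
        ¬ r ∣ orderOf g → g = 1) →
        (r : ℤ) ∣ (m * k : ℕ) - ((charDegree (χ : G → ℂ) : ℤ) ^ 2 - 1) := by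
  classical
  have hd := one_lt_deg h
  have h1 : r ^ n ∣ Nat.card G := ⟨m, hN⟩
  have h2 : ¬ r ^ (n + 1) ∣ Nat.card G := by
    rw [hN, pow_succ]
    exact fun h => hm ((Nat.mul_dvd_mul_iff_left (pow_pos hr.pos n)).1 h)
  obtain ⟨k', hk'⟩ := H733.OZ.sum_reg_sub χ hr h1 h2
  have hrpos : (0 : ℝ) < (r : ℝ) ^ n := by
    have := hr.pos
    positivity
  have hE : (∑ g ∈ reg G r, Complex.normSq ((χ : G → ℂ) g)) - (reg G r).card = (m : ℝ) * k' := by
    have h3 : ((r : ℝ) ^ n) * ((∑ g ∈ reg G r, Complex.normSq ((χ : G → ℂ) g)) - (reg G r).card)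
        = (r : ℝ) ^ n * ((m : ℝ) * k') := by
      rw [hk', hN]
      push_cast
      ring
    exact mul_left_cancel₀ hrpos.ne' h3
  have hreg0 : ∀ g ∈ reg G r, (χ : G → ℂ) g ≠ 0 := by
    intro g hg h0
    rw [mem_reg, ← orderOf_eq_of_conj (h.uniq g h0)] at hg
    exact hg hx
  -- strictly positive
  have h1mem : (1 : G) ∈ reg G r := by
    rw [mem_reg, orderOf_one]
    exact fun h => hr.one_lt.ne' (Nat.dvd_one.1 h)
  have hgal1 : H695.OneZero.Gal ((reg G r).erase 1) := by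
    intro g hg k hk
    rw [Finset.mem_erase] at hg ⊢
    refine ⟨fun h1 => hg.1 ?_, gal_reg r g hg.2 k hk⟩
    rw [← orderOf_eq_one_iff, ← H733.OZ.orderOf_pow_of_coprime hk, h1, orderOf_one]
  have hlow := H695.OneZero.card_le χ hgal1 fun g hg => hreg0 g (Finset.mem_of_mem_erase hg)
  have hsplit := Finset.add_sum_erase (reg G r)
    (fun g => Complex.normSq ((χ : G → ℂ) g)) h1mem
  have hce : (((reg G r).erase 1).card : ℝ) + 1 = (reg G r).card := by
    have := Finset.card_erase_add_one h1mem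
    exact_mod_cast this
  have hd2 : (1 : ℝ) < Complex.normSq ((χ : G → ℂ) 1) := by
    rw [← charDegree_irr χ, Complex.normSq_natCast]
    have : (1 : ℝ) < charDegree (χ : G → ℂ) := by exact_mod_cast hd
    nlinarith
  have hmpos : (0 : ℝ) < m := by
    have : m ≠ 0 := by
      rintro rfl
      exact hm (dvd_zero r)
    exact_mod_cast Nat.pos_of_ne_zero this
  have hpos : (0 : ℝ) < (m : ℝ) * k' := by
    rw [← hE, ← hsplit]
    linarith
  have hk0 : 0 < k' := by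
    have : (0 : ℝ) < (k' : ℝ) := (pos_iff_pos_of_mul_pos hpos).1 hmpos
    exact_mod_cast this
  obtain ⟨k, hk⟩ : ∃ k : ℕ, k' = (k : ℤ) := ⟨k'.toNat, by omega⟩
  have hkr : (k' : ℝ) = (k : ℝ) := by rw [hk]; push_cast; ring
  refine ⟨k, by omega, ⟨gal_reg r, hreg0, ?_⟩, ?_⟩
  · push_cast
    rw [hkr] at hE
    linarith
  · intro P hP
    have h3 := modEq (χ := χ) hr P hP (e := (m : ℤ) * k') (by
      rw [hE]
      push_cast
      ring)
    rw [hk] at h3
    push_cast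
    exact h3

end Fin

/-- disjointness -/
theorem sing_disjoint [Fintype G] [DecidableEq G] {r s : ℕ} (hrs : r.Coprime s)
    (h : ∀ g : G, ¬ r * s ∣ orderOf g) : Disjoint (sing G r) (sing G s) := by
  rw [Finset.disjoint_left]
  intro g hg hg'
  rw [mem_sing] at hg hg'
  exact h g (hrs.mul_dvd_of_dvd_of_dvd hg hg')

/-- **Three primes.** -/
theorem three [Finite G] {χ : IrrCharacter G} {x : G} (h : One χ x) {r₁ n₁ m₁ r₂ n₂ m₂ r₃ n₃ m₃ : ℕ}
    (hr₁ : r₁.Prime) (hN₁ : Nat.card G = r₁ ^ n₁ * m₁) (hm₁ : ¬ r₁ ∣ m₁) (hx₁ : ¬ r₁ ∣ orderOf x)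
    (hr₂ : r₂.Prime) (hN₂ : Nat.card G = r₂ ^ n₂ * m₂) (hm₂ : ¬ r₂ ∣ m₂) (hx₂ : ¬ r₂ ∣ orderOf x)
    (hr₃ : r₃.Prime) (hN₃ : Nat.card G = r₃ ^ n₃ * m₃) (hm₃ : ¬ r₃ ∣ m₃) (hx₃ : ¬ r₃ ∣ orderOf x)
    (h12 : r₁.Coprime r₂) (h13 : r₁.Coprime r₃) (h23 : r₂.Coprime r₃)
    (hd12 : ∀ g : G, ¬ r₁ * r₂ ∣ orderOf g) (hd13 : ∀ g : G, ¬ r₁ * r₃ ∣ orderOf g)
    (hd23 : ∀ g : G, ¬ r₂ * r₃ ∣ orderOf g)
    (P : Sylow r₁ G) (hP : ∀ g ∈ Subgroup.centralizer ((P : Subgroup G) : Set G),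
      ¬ r₁ ∣ orderOf g → g = 1) :
    ∃ k₁ k₂ k₃ : ℕ, cent x * (m₁ * k₁ + m₂ * k₂ + m₃ * k₃ + (charDegree (χ : G → ℂ) ^ 2 - 1))
        ≤ Nat.card G ∧
      (k₁ = 0 → r₁ ^ n₁ ∣ charDegree (χ : G → ℂ) ^ 2 - 1) ∧
      (k₂ = 0 → r₂ ^ n₂ ∣ charDegree (χ : G → ℂ) ^ 2 - 1) ∧
      (k₃ = 0 → r₃ ^ n₃ ∣ charDegree (χ : G → ℂ) ^ 2 - 1) ∧
      r₁ ∣ m₁ * k₁ + (charDegree (χ : G → ℂ) ^ 2 - 1) := by
  classical
  have := Fintype.ofFinite G
  obtain ⟨k₁, e₁, z₁, c₁⟩ := exists_k h hr₁ hN₁ hm₁ hx₁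
  obtain ⟨k₂, e₂, z₂, -⟩ := exists_k h hr₂ hN₂ hm₂ hx₂
  obtain ⟨k₃, e₃, z₃, -⟩ := exists_k h hr₃ hN₃ hm₃ hx₃
  refine ⟨k₁, k₂, k₃, ?_, z₁, z₂, z₃, c₁ P hP⟩
  have h1 : ∀ r : ℕ, r.Prime → Disjoint (sing G r) ({1} : Finset G) := by
    intro r hr
    rw [Finset.disjoint_singleton_right, mem_sing, orderOf_one]
    exact fun h => hr.one_lt.ne' (Nat.dvd_one.1 h)
  have hA := e₁.union e₂ (sing_disjoint h12 hd12)
  have hB := hA.union e₃ (by
    rw [Finset.disjoint_union_left]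
    exact ⟨sing_disjoint h13 hd13, sing_disjoint h23 hd23⟩)
  have hC := hB.union (ex_one h) (by
    rw [Finset.disjoint_union_left, Finset.disjoint_union_left]
    exact ⟨⟨h1 _ hr₁, h1 _ hr₂⟩, h1 _ hr₃⟩)
  have hD := hC.mul_le h
  rw [mul_comm]
  exact hD

/-- **One prime, `x` singular.** -/
theorem one_sing [Finite G] {χ : IrrCharacter G} {x : G} (h : One χ x) {r n m : ℕ}
    (hr : r.Prime) (hN : Nat.card G = r ^ n * m) (hm : ¬ r ∣ m) (hx : r ∣ orderOf x)
    (P : Sylow r G) (hP : ∀ g ∈ Subgroup.centralizer ((P : Subgroup G) : Set G),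
      ¬ r ∣ orderOf g → g = 1) :
    ∃ k : ℕ, 0 < k ∧ cent x * (m * k) ≤ Nat.card G ∧
      (r : ℤ) ∣ (m * k : ℕ) - ((charDegree (χ : G → ℂ) : ℤ) ^ 2 - 1) := by
  classical
  have := Fintype.ofFinite G
  obtain ⟨k, hk, he, hc⟩ := exists_reg_k h hr hN hm hx
  refine ⟨k, hk, ?_, hc P hP⟩
  rw [mul_comm]
  exact he.mul_le h

end Cfsg.Agent.H678.OZ
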