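import Cfsg.Agent.H678.OZ.CoOneAbs
import Cfsg.Agent.H678.OZ.CoOneDod
import Cfsg.Agent.H678.OZ.CoOneSeven
import Cfsg.Agent.H678.OZ.CoOneData
import Cfsg.Agent.H593.OZ.CoOne
import Cfsg.Agent.H730.OZ.Asm

/-!
# S4842, the row of `Co1` (helper678; `9 ≤ |C(x)|`: helper593)
-/

set_option autoImplicit false

open Cfsg Cfsg.Agent.Characters Cfsg.Agent.H686.CharKit Cfsg.Agent.H732.VZ Cfsg.Agent.H604.OZ

namespace Cfsg.Agent.H678.OZ

universe u

theorem CoOne.data [Finite Spor.Co1] : CoOne.Data Spor.Co1 where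
  simple := Cfsg.Agent.S0399.result.1
  card := Cfsg.Agent.S0399.result.2
  c11 := CoOneData.c11
  c13 := CoOneData.c13
  c23 := CoOneData.c23
  two7 := CoOneSeven.two7
  syl7 := CoOneSeven.syl7
  dod := CoOneDod.exists_dod
  two_le := fun x _ _ => H593.OZ.CoOne.nine_le x
  not_six := fun x h => by
    have h1 : 9 ≤ cent x := H593.OZ.CoOne.nine_le x
    omega

theorem row_co1' [Finite Spor.Co1] : H730.OZ.Row Spor.Co1 :=
  row_of fun _ _ h => CoOne.data.false h

/-- **`Co₁`.** -/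
theorem row_co1 {S : Type u} [Group S] [Finite S] (_hs : IsSimpleGroup S) (h : Spor.IsoCo1 S) :
    H730.OZ.Row S := by
  obtain ⟨e⟩ := h
  have hfin : Finite Spor.Co1 := Finite.of_equiv _ e.toEquiv
  exact H730.OZ.Row.congr e row_co1'

end Cfsg.Agent.H678.OZ
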